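import Cfsg.Agent.H439.CC.Defs
import Cfsg.Agent.H617.EqD.CoL

/-!
# S4884, classical groups in cross characteristic: (E1), the factorization of `TT` (helper364)

* `TT_eq` : `TT rk ds A` as a sum over the chains above `A`;
* `rho_eq` : the same for `ρ`;
* `e1` : `TT rk (k :: ds) A = ∑_B ρ(A, B) TT rk ds B`.
-/

set_option autoImplicit false

namespace Cfsg.Agent.H364.CC

open Cfsg.Agent.H439.CC Finset

universe u

/-! ### the coefficients -/

theorem coL_nil (K : Finset ℕ) : coL [] K = if K = ∅ then 1 else 0 := by rw [coL]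

theorem coL_cons_not {k : ℕ} {ds : List ℕ} {K : Finset ℕ} (h : k ∉ K) : coL (k :: ds) K = 0 := by
  rw [coL, dif_neg h]

theorem coL_cons {k : ℕ} {ds : List ℕ} {K : Finset ℕ} (h : k ∈ K) : coL (k :: ds) K =
    (-1) ^ ((K.filter fun x => x < k).card) * (K.min' ⟨k, h⟩ : ℤ) *
      coL ds ((K.filter fun x => k < x).image fun x => x - k) := by
  rw [coL, dif_pos h]

theorem subset_of_coL_ne {ds : List ℕ} : ∀ {K : Finset ℕ}, coL ds K ≠ 0 → K ⊆ Icc 1 ds.sum := by
  induction ds with
  | nil =>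
    intro K h
    rw [coL_nil] at h
    split_ifs at h with h1
    · rw [h1]
      exact empty_subset _
    · exact absurd rfl h
  | cons k ds ih =>
    intro K h x hx
    have hk : k ∈ K := by
      by_contra hk
      exact h (coL_cons_not hk)
    rw [coL_cons hk] at h
    have h0 : 0 ∉ K := by
      intro h0
      apply h
      have h1 : K.min' ⟨k, hk⟩ = 0 := Nat.le_zero.1 (min'_le K 0 h0)
      rw [h1, Nat.cast_zero, mul_zero, zero_mul]
    have h2 := ih (right_ne_zero_of_mul h)
    rw [mem_Icc, List.sum_cons]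
    have hx1 : 1 ≤ x := Nat.one_le_iff_ne_zero.2 fun h => h0 (h ▸ hx)
    refine ⟨hx1, ?_⟩
    rcases Nat.lt_or_ge k x with h3 | h3
    · have h4 := h2 (mem_image.2 ⟨x, mem_filter.2 ⟨hx, h3⟩, rfl⟩)
      rw [mem_Icc] at h4
      omega
    · omega

/-! ### chains -/

variable {P : Type u} [PartialOrder P]

omit [PartialOrder P] in
/-- `∑_K f(K) #{c : im c = K} = ∑_c f(im c)` -/
theorem sum_card [Finite P] (p : Finset P → Prop) (im : Finset P → Finset ℕ) (f : Finset ℕ → ℤ) (N : ℕ)
    (hf : ∀ K, f K ≠ 0 → K ⊆ Icc 1 N) :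
    ∑ K ∈ (Icc 1 N).powerset, f K * (Nat.card {c : Finset P // p c ∧ im c = K} : ℤ) =
      ∑ᶠ c : {c : Finset P // p c}, f (im c.1) := by
  classical
  have : Fintype P := Fintype.ofFinite P
  have e1 : ∑ᶠ c : {c : Finset P // p c}, f (im c.1) = ∑ c ∈ univ.filter p, f (im c) := by
    rw [finsum_eq_sum_of_fintype, ← Finset.sum_subtype_eq_sum_filter, Finset.subtype_univ]
  rw [e1, Finset.sum_comp f im]
  refine Finset.sum_congr_of_eq_on_inter ?_ ?_ ?_
  · intro K _ hK
    have h1 : Nat.card {c : Finset P // p c ∧ im c = K} = 0 := by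
      rw [Nat.card_eq_zero]
      left
      refine ⟨fun c => hK (mem_image.2 ⟨c.1, mem_filter.2 ⟨mem_univ _, c.2.1⟩, c.2.2⟩)⟩
    rw [h1, Nat.cast_zero, mul_zero]
  · intro K _ hK
    by_cases h : f K = 0
    · rw [h, smul_zero]
    · exact absurd (mem_powerset.2 (hf K h)) hK
  · intro K _ _
    have h1 : Nat.card {c : Finset P // p c ∧ im c = K} = #{c ∈ univ.filter p | im c = K} := by
      rw [filter_filter, Nat.card_eq_fintype_card, Fintype.card_subtype]
    rw [h1, nsmul_eq_mul, mul_comm]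

/-- the chains above `A` -/
def Ch (A : P) (c : Finset P) : Prop := IsChain (· ≤ ·) (c : Set P) ∧ ∀ x ∈ c, A < x

/-- the chains in `(A, B]` containing `B` -/
def ChB (A B : P) (c : Finset P) : Prop := IsChain (· ≤ ·) (c : Set P) ∧ (∀ x ∈ c, A < x ∧ x ≤ B) ∧ B ∈ c

/-- the relative ranks -/
def im (rk : P → ℕ) (A : P) (c : Finset P) : Finset ℕ := c.image fun x => rk x - rk A

theorem TT_eq [Finite P] (rk : P → ℕ) (ds : List ℕ) (A : P) :
    TT rk ds A = ∑ᶠ c : {c : Finset P // Ch A c}, coL ds (im rk A c.1) := by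
  classical
  rw [← sum_card (Ch A) (im rk A) (coL ds) ds.sum fun K h => subset_of_coL_ne h]
  unfold TT fl
  refine sum_congr rfl fun K _ => ?_
  congr 2
  exact Nat.card_congr (Equiv.subtypeEquivRight fun c => ⟨fun h => ⟨⟨h.1, h.2.1⟩, h.2.2⟩, fun h => ⟨h.1.1, h.1.2, h.2⟩⟩)

theorem rho_eq [Finite P] (rk : P → ℕ) (k : ℕ) (A B : P) :
    rho rk k A B = ∑ᶠ c : {c : Finset P // ChB A B c}, coL [k] (im rk A c.1) := by
  classical
  rw [← sum_card (ChB A B) (im rk A) (coL [k]) k fun K h => by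
    have := subset_of_coL_ne h
    rwa [List.sum_singleton] at this]
  unfold rho flB
  refine sum_congr rfl fun K _ => ?_
  congr 2
  exact Nat.card_congr (Equiv.subtypeEquivRight fun c =>
    ⟨fun h => ⟨⟨h.1, h.2.1, h.2.2.1⟩, h.2.2.2⟩, fun h => ⟨h.1.1, h.1.2.1, h.1.2.2, h.2⟩⟩)

/-- the coefficient of a composed chain -/
theorem coL_union {rk : P → ℕ} (hrk : StrictMono rk) {k : ℕ} (ds : List ℕ) {A B : P} (hB : rk B = rk A + k)
    {c₁ c₂ : Finset P} [DecidableEq P] (h₁ : ChB A B c₁) (h₂ : Ch B c₂) :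
    coL (k :: ds) (im rk A (c₁ ∪ c₂)) = coL [k] (im rk A c₁) * coL ds (im rk B c₂) := by
  obtain ⟨h3, h4, h5⟩ := h₁
  obtain ⟨h6, h7⟩ := h₂
  have hk1 : k ∈ im rk A c₁ := mem_image.2 ⟨B, h5, by omega⟩
  have e0 : im rk A (c₁ ∪ c₂) = im rk A c₁ ∪ im rk A c₂ := image_union _ _
  have hle : ∀ x ∈ im rk A c₁, x ≤ k := by
    intro x hx
    obtain ⟨y, hy, rfl⟩ := mem_image.1 hx
    have := hrk.monotone (h4 y hy).2
    omega
  have hgt : ∀ x ∈ im rk A c₂, k < x := by
    intro x hx
    obtain ⟨y, hy, rfl⟩ := mem_image.1 hx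
    have := hrk (h7 y hy)
    omega
  have hk : k ∈ im rk A (c₁ ∪ c₂) := by
    rw [e0]
    exact mem_union_left _ hk1
  have e1 : (im rk A (c₁ ∪ c₂)).filter (fun x => x < k) = (im rk A c₁).filter fun x => x < k := by
    ext x
    rw [mem_filter, mem_filter, e0, mem_union]
    constructor
    · rintro ⟨h8 | h8, h9⟩
      · exact ⟨h8, h9⟩
      · have := hgt x h8
        omega
    · rintro ⟨h8, h9⟩
      exact ⟨Or.inl h8, h9⟩
  have e2 : ((im rk A (c₁ ∪ c₂)).filter fun x => k < x) = im rk A c₂ := by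
    ext x
    rw [mem_filter, e0, mem_union]
    constructor
    · rintro ⟨h8 | h8, h9⟩
      · have := hle x h8
        omega
      · exact h8
    · intro h8
      exact ⟨Or.inr h8, hgt x h8⟩
  have e3 : (im rk A c₂).image (fun x => x - k) = im rk B c₂ := by
    unfold im
    rw [image_image]
    refine image_congr fun x _ => ?_
    show rk x - rk A - k = rk x - rk B
    omega
  have e4 : ((im rk A c₁).filter fun x => k < x) = ∅ := by
    rw [filter_eq_empty_iff]
    intro x hx h8
    have := hle x hx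
    omega
  have e5 : (im rk A (c₁ ∪ c₂)).min' ⟨k, hk⟩ = (im rk A c₁).min' ⟨k, hk1⟩ := by
    apply le_antisymm
    · apply min'_le
      rw [e0]
      exact mem_union_left _ (min'_mem _ _)
    · apply le_min'
      intro y hy
      rw [e0, mem_union] at hy
      rcases hy with hy | hy
      · exact min'_le _ _ hy
      · exact (min'_le _ _ hk1).trans (hgt y hy).le
  rw [coL_cons hk, coL_cons hk1, e1, e2, e3, e4, e5, image_empty, coL_nil, if_pos rfl, mul_one]

/-- **(E1)** -/
theorem e1 : E1.{u} := by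
  intro P _ _ rk hrk k ds A _ _
  classical
  have : Fintype P := Fintype.ofFinite P
  let f : Finset P → ℤ := fun c => coL (k :: ds) (im rk A c)
  let S : Finset P := univ.filter fun B => A < B ∧ rk B = rk A + k
  have hL : TT rk (k :: ds) A = ∑ c ∈ univ.filter (Ch A), f c := by
    rw [TT_eq, finsum_eq_sum_of_fintype, ← Finset.sum_subtype_eq_sum_filter, Finset.subtype_univ]
  have hR : ∀ B : P, rho rk k A B * TT rk ds B = ∑ x ∈ (univ.filter (ChB A B)) ×ˢ (univ.filter (Ch B)),
      coL [k] (im rk A x.1) * coL ds (im rk B x.2) := by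
    intro B
    have hA : rho rk k A B = ∑ x ∈ univ.filter (ChB A B), coL [k] (im rk A x) := by
      rw [rho_eq, finsum_eq_sum_of_fintype, ← Finset.sum_subtype_eq_sum_filter, Finset.subtype_univ]
    have hB : TT rk ds B = ∑ x ∈ univ.filter (Ch B), coL ds (im rk B x) := by
      rw [TT_eq, finsum_eq_sum_of_fintype, ← Finset.sum_subtype_eq_sum_filter, Finset.subtype_univ]
    rw [hA, hB, Finset.sum_mul_sum, Finset.sum_product]
  rw [hL]
  have hS : ∑ᶠ B : {B : P // A < B ∧ rk B = rk A + k}, rho rk k A B.1 * TT rk ds B.1 =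
      ∑ B ∈ S, rho rk k A B * TT rk ds B := by
    rw [finsum_eq_sum_of_fintype, ← Finset.sum_subtype_eq_sum_filter, Finset.subtype_univ]
  rw [hS]
  -- each chain contains at most one element of `S`
  have h1 : ∀ c ∈ univ.filter (Ch A), f c = ∑ B ∈ S, if B ∈ c then f c else 0 := by
    intro c hc
    rw [mem_filter] at hc
    by_cases hk : k ∈ im rk A c
    · obtain ⟨B, hB, hBk⟩ := mem_image.1 hk
      have hAB := hc.2.2 B hB
      have h2 := hrk hAB
      rw [Finset.sum_eq_single B]
      · rw [if_pos hB]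
      · intro B' hB' hne
        rw [if_neg]
        intro hB'c
        apply hne
        rw [mem_filter] at hB'
        rcases hc.2.1.total (mem_coe.2 hB) (mem_coe.2 hB'c) with h3 | h3
        · rcases h3.eq_or_lt with h4 | h4
          · exact h4.symm
          · have := hrk h4
            omega
        · rcases h3.eq_or_lt with h4 | h4
          · exact h4
          · have := hrk h4
            omega
      · intro hBS
        exact absurd (mem_filter.2 ⟨mem_univ _, hAB, by omega⟩) hBS
    · have h2 : f c = 0 := coL_cons_not hk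
      rw [h2]
      simp
  rw [sum_congr rfl h1, sum_comm]
  refine sum_congr rfl fun B hB => ?_
  rw [mem_filter] at hB
  obtain ⟨-, hAB, hrB⟩ := hB
  rw [hR, ← sum_filter]
  refine sum_nbij' (fun c => (c.filter (· ≤ B), c.filter (B < ·))) (fun x => x.1 ∪ x.2) ?_ ?_ ?_ ?_ ?_
  · intro c hc
    rw [mem_filter, mem_filter] at hc
    rw [mem_product, mem_filter, mem_filter]
    refine ⟨⟨mem_univ _, hc.1.2.1.mono (coe_subset.2 (filter_subset _ _)), fun x hx => ?_, ?_⟩, mem_univ _,
      hc.1.2.1.mono (coe_subset.2 (filter_subset _ _)), fun x hx => (mem_filter.1 hx).2⟩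
    · rw [mem_filter] at hx
      exact ⟨hc.1.2.2 x hx.1, hx.2⟩
    · exact mem_filter.2 ⟨hc.2, le_rfl⟩
  · rintro ⟨c₁, c₂⟩ hx
    rw [mem_product, mem_filter, mem_filter] at hx
    obtain ⟨⟨-, h2, h3, h4⟩, -, h5, h6⟩ := hx
    rw [mem_filter, mem_filter]
    refine ⟨⟨mem_univ _, ?_, fun x hx => ?_⟩, mem_union_left _ h4⟩
    · rw [coe_union]
      rintro x (hx | hx) y (hy | hy) hxy
      · exact h2 hx hy hxy
      · exact Or.inl ((h3 x hx).2.trans (h6 y hy).le)
      · exact Or.inr ((h3 y hy).2.trans (h6 x hx).le)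
      · exact h5 hx hy hxy
    · rcases mem_union.1 hx with hx | hx
      · exact (h3 x hx).1
      · exact hAB.trans (h6 x hx)
  · intro c hc
    rw [mem_filter, mem_filter] at hc
    ext x
    rw [mem_union, mem_filter, mem_filter]
    constructor
    · rintro (h | h) <;> exact h.1
    · intro hx
      rcases hc.1.2.1.total (mem_coe.2 hx) (mem_coe.2 hc.2) with h3 | h3
      · exact Or.inl ⟨hx, h3⟩
      · rcases h3.eq_or_lt with h4 | h4
        · exact Or.inl ⟨hx, h4.symm.le⟩
        · exact Or.inr ⟨hx, h4⟩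
  · rintro ⟨c₁, c₂⟩ hx
    rw [mem_product, mem_filter, mem_filter] at hx
    obtain ⟨⟨-, h2, h3, h4⟩, -, h5, h6⟩ := hx
    refine Prod.ext ?_ ?_
    · ext x
      rw [mem_filter, mem_union]
      constructor
      · rintro ⟨h | h, h'⟩
        · exact h
        · exact absurd (h6 x h) (not_lt_of_ge h')
      · intro h
        exact ⟨Or.inl h, (h3 x h).2⟩
    · ext x
      rw [mem_filter, mem_union]
      constructor
      · rintro ⟨h | h, h'⟩
        · exact absurd h' (not_lt_of_ge (h3 x h).2)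
        · exact h
      · intro h
        exact ⟨Or.inr h, h6 x h⟩
  · intro c hc
    rw [mem_filter, mem_filter] at hc
    have h2 : c.filter (· ≤ B) ∪ c.filter (B < ·) = c := by
      ext x
      rw [mem_union, mem_filter, mem_filter]
      constructor
      · rintro (h | h) <;> exact h.1
      · intro hx
        rcases hc.1.2.1.total (mem_coe.2 hx) (mem_coe.2 hc.2) with h3 | h3
        · exact Or.inl ⟨hx, h3⟩
        · rcases h3.eq_or_lt with h4 | h4
          · exact Or.inl ⟨hx, h4.symm.le⟩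
          · exact Or.inr ⟨hx, h4⟩
    have h3 := coL_union hrk ds hrB (c₁ := c.filter (· ≤ B)) (c₂ := c.filter (B < ·))
      ⟨hc.1.2.1.mono (coe_subset.2 (filter_subset _ _)), fun x hx => ⟨hc.1.2.2 x (mem_filter.1 hx).1, (mem_filter.1 hx).2⟩,
        mem_filter.2 ⟨hc.2, le_rfl⟩⟩
      ⟨hc.1.2.1.mono (coe_subset.2 (filter_subset _ _)), fun x hx => (mem_filter.1 hx).2⟩
    show coL (k :: ds) (im rk A c) = _
    rw [← h3, h2]

end Cfsg.Agent.H364.CC
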